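import Cfsg.Agent.FGS4.ThreeSizes.Nilpotent

/-! # Class sizes `1`, `n`, `m`, `n * m`: basic facts -/

set_option linter.style.haveILetI false

namespace Cfsg.Agent.FGS4.FourSizes

open Subgroup ThreeSizes

variable {G : Type*} [Group G]

/-- The class sizes are `1`, `n`, `m`, `n * m`. -/
structure Hyp (G : Type*) [Group G] (n m : ℕ) : Prop where
  hn : 1 < n
  hm : 1 < m
  hcop : n.Coprime m
  idx : ∀ x : G, (cz x).index = 1 ∨ (cz x).index = n ∨ (cz x).index = m ∨ (cz x).index = n * m
  exn : ∃ x : G, (cz x).index = n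
  exm : ∃ x : G, (cz x).index = m
  exnm : ∃ x : G, (cz x).index = n * m

theorem Hyp.symm {n m : ℕ} (hh : Hyp G n m) : Hyp G m n := by
  refine ⟨hh.hm, hh.hn, hh.hcop.symm, fun x => ?_, hh.exm, hh.exn, mul_comm n m ▸ hh.exnm⟩
  rw [mul_comm m n]
  rcases hh.idx x with e | e | e | e
  · exact Or.inl e
  · exact Or.inr (Or.inr (Or.inl e))
  · exact Or.inr (Or.inl e)
  · exact Or.inr (Or.inr (Or.inr e))

theorem conj_mem_cz_iff {x y g : G} : g * y * g⁻¹ ∈ cz (g * x * g⁻¹) ↔ y ∈ cz x := by
  rw [cz_conj, mem_map_equiv, MulAut.conj_symm_apply,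
    show g⁻¹ * (g * y * g⁻¹) * g = y by group]

/-- A central commutator of coprime elements is trivial. -/
theorem comm_of_central_coprime {g x c : G} (hc : c ∈ center G) (h : g * x * g⁻¹ = c * x)
    (hcop : (orderOf g).Coprime (orderOf x)) : c = 1 := by
  have hcx : ∀ y : G, Commute c y := fun y => (Subgroup.mem_center_iff.1 hc y).symm
  have h1 : c ^ orderOf x = 1 := by
    have h2 : (c * x) ^ orderOf x = 1 := by rw [← h, conj_pow, pow_orderOf_eq_one]; group
    rwa [(hcx x).mul_pow, pow_orderOf_eq_one, mul_one] at h2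
  have hk : ∀ k : ℕ, g ^ k * x * (g ^ k)⁻¹ = c ^ k * x := by
    intro k
    induction k with
    | zero => simp
    | succ k ih =>
      calc g ^ (k + 1) * x * (g ^ (k + 1))⁻¹ = g * (g ^ k * x * (g ^ k)⁻¹) * g⁻¹ := by
            rw [pow_succ']; group
        _ = (g * c ^ k) * x * g⁻¹ := by rw [ih]; group
        _ = (c ^ k * g) * x * g⁻¹ := by rw [((hcx g).pow_left k).symm.eq]
        _ = c ^ k * (g * x * g⁻¹) := by group
        _ = c ^ (k + 1) * x := by rw [h, pow_succ]; group
  have h2 : c ^ orderOf g = 1 := by simpa [pow_orderOf_eq_one] using (hk (orderOf g)).symm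
  exact orderOf_eq_one_iff.1 (Nat.eq_one_of_dvd_coprimes hcop (orderOf_dvd_of_pow_eq_one h2)
    (orderOf_dvd_of_pow_eq_one h1))

variable [Finite G]

theorem eq_of_le_of_index_eq {H K : Subgroup G} (h : H ≤ K) (e : H.index = K.index) : H = K := by
  refine le_antisymm h (relIndex_eq_one.1 ?_)
  have h1 := relIndex_mul_index h
  have hK : K.index ≠ 0 := index_ne_zero_of_finite
  rw [e] at h1
  exact mul_right_cancel₀ hK (by rw [h1, one_mul])

/-- An `r`-element of `K` is conjugate in `K` into a subgroup with the same `r`-part. -/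
theorem conj_mem_of_fact {r : ℕ} [hr : Fact r.Prime] {H K : Subgroup G} (hle : H ≤ K)
    (hf : (Nat.card K).factorization r ≤ (Nat.card H).factorization r) {t : G} (ht : IsEl r t)
    (htK : t ∈ K) : ∃ k ∈ K, k * t * k⁻¹ ∈ H := by
  have hf' : (Nat.card H).factorization r = (Nat.card K).factorization r :=
    le_antisymm (fact_le_of_le hle r) hf
  obtain ⟨S⟩ : Nonempty (Sylow r H) := inferInstance
  set U := ((S : Subgroup H).map H.subtype).subgroupOf K
  have hcard : Nat.card U = r ^ (Nat.card K).factorization r := by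
    rw [Nat.card_congr (subgroupOfEquivOfLe ((map_subtype_le _).trans hle)).toEquiv,
      card_map_of_injective H.subtype_injective, sylow_card_eq S, hf']
  obtain ⟨k, hk⟩ := ht
  obtain ⟨T, hT⟩ := (pgroup_zpowers (x := (⟨t, htK⟩ : K)) (r := r) (k := k)
    (by rw [Subgroup.orderOf_mk]; exact hk)).exists_le_sylow
  obtain ⟨c, hc⟩ := MulAction.exists_smul_eq K T (Sylow.ofCard U hcard)
  refine ⟨c, c.2, ?_⟩
  have h1 : c * ⟨t, htK⟩ * c⁻¹ ∈ (Sylow.ofCard U hcard : Subgroup K) := by
    rw [← hc, Sylow.coe_subgroup_smul]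
    exact ⟨⟨t, htK⟩, hT (mem_zpowers _), rfl⟩
  rw [Sylow.coe_ofCard] at h1
  exact map_subtype_le _ (mem_subgroupOf.1 h1)

theorem exists_el_of_notMem_center {g : G} (hg : g ∉ center G) :
    ∃ q, q.Prime ∧ ∃ t ∈ zpowers g, IsEl q t ∧ t ∉ center G ∧ cz g ≤ cz t := by
  obtain ⟨q, k, i, hq, ht, ho, -⟩ := FGS3.TwoClassSizes.exists_noncentral_part hg
  exact ⟨q, hq, g ^ k, npow_mem_zpowers g k, ⟨i, ho⟩, ht, cz_pow_le g k⟩

theorem le_center_of_els {H : Subgroup G}
    (h : ∀ q : ℕ, q.Prime → ∀ t ∈ H, IsEl q t → t ∈ center G) : H ≤ center G := by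
  intro g hg
  by_contra hgc
  obtain ⟨q, hq, t, ht, hte, htc, -⟩ := exists_el_of_notMem_center hgc
  exact htc (h q hq t ((zpowers_le (H := H)).2 hg ht) hte)

variable {n m : ℕ} (hh : Hyp G n m)
include hh

omit [Finite G] in
theorem Hyp.npos : n ≠ 0 := by have := hh.hn; omega

omit [Finite G] in
theorem Hyp.mpos : m ≠ 0 := by have := hh.hm; omega

omit [Finite G] in
theorem Hyp.not_dvd_m {q : ℕ} (hq : q.Prime) (hqn : q ∣ n) : ¬ q ∣ m := fun h =>
  hq.ne_one (Nat.eq_one_of_dvd_coprimes hh.hcop hqn h)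

omit [Finite G] in
theorem Hyp.not_dvd {a : ℕ} (ha : a = m ∨ a = n * m) : ¬ a ∣ n := by
  intro h
  have hd : m ∣ n := by rcases ha with rfl | rfl <;> [exact h; exact dvd_trans (dvd_mul_left m n) h]
  have := Nat.eq_one_of_dvd_coprimes hh.hcop hd dvd_rfl
  have := hh.hm
  omega

theorem Hyp.noncentral {x : G} (hx : (cz x).index ≠ 1) : x ∉ center G := fun h => hx (idx_one_iff.2 h)

theorem Hyp.noncentral_n {x : G} (hx : (cz x).index = n) : x ∉ center G :=
  hh.noncentral (by rw [hx]; have := hh.hn; omega)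

theorem Hyp.cases {x : G} (hx : x ∉ center G) :
    (cz x).index = n ∨ (cz x).index = m ∨ (cz x).index = n * m :=
  (hh.idx x).resolve_left fun h => hx (idx_one_iff.1 h)

theorem Hyp.of_dvd_n {x : G} (hx : x ∉ center G) (hd : (cz x).index ∣ n) : (cz x).index = n := by
  rcases hh.cases hx with e | e | e
  · exact e
  · exact absurd (e ▸ hd) (hh.not_dvd (Or.inl rfl))
  · exact absurd (e ▸ hd) (hh.not_dvd (Or.inr rfl))

theorem Hyp.multiple_n {x : G} (hd : n ∣ (cz x).index) :
    (cz x).index = n ∨ (cz x).index = n * m := by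
  have := hh.hn
  rcases hh.idx x with e | e | e | e
  · rw [e, Nat.dvd_one] at hd; omega
  · exact Or.inl e
  · exact absurd (e ▸ hd) (hh.symm.not_dvd (Or.inl rfl))
  · exact Or.inr e

theorem Hyp.exists_el_n : ∃ q, q.Prime ∧ ∃ t : G, IsEl q t ∧ (cz t).index = n := by
  obtain ⟨g, hg⟩ := hh.exn
  obtain ⟨q, hq, t, -, hte, htc, hle⟩ := exists_el_of_notMem_center (hh.noncentral_n hg)
  exact ⟨q, hq, t, hte, hh.of_dvd_n htc (hg ▸ idx_dvd_of_le hle)⟩

theorem Hyp.fact_n {x : G} (hx : (cz x).index = n) (q : ℕ) :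
    (Nat.card (cz x)).factorization q + n.factorization q = (Nat.card G).factorization q := by
  rw [fact_card_mul (cz x) q, hx]

theorem Hyp.fact_nm {x : G} (hx : (cz x).index = n * m) (q : ℕ) :
    (Nat.card (cz x)).factorization q + (n.factorization q + m.factorization q)
      = (Nat.card G).factorization q := by
  rw [fact_card_mul (cz x) q, hx, Nat.factorization_mul hh.npos hh.mpos]
  rfl

/-- Every centralizer has `q`-part at least that of a centralizer of index `n` when `q ∤ m`. -/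
theorem Hyp.fact_ge {q : ℕ} (hqm : ¬ q ∣ m) {x : G} (hx : (cz x).index = n) (g : G) :
    (Nat.card (cz x)).factorization q ≤ (Nat.card (cz g)).factorization q := by
  have h1 := hh.fact_n hx q
  have h2 := fact_card_mul (cz g) q
  have h0 : m.factorization q = 0 := Nat.factorization_eq_zero_of_not_dvd hqm
  rcases hh.idx g with e | e | e | e <;> rw [e] at h2
  · rw [Nat.factorization_one] at h2
    simp only [Finsupp.coe_zero, Pi.zero_apply] at h2
    omega
  · omega
  · omega
  · rw [Nat.factorization_mul hh.npos hh.mpos] at h2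
    simp only [Finsupp.coe_add, Pi.add_apply] at h2
    omega

/-- For `q ∤ m` the elements of class size `m` centralize a Sylow `q`-subgroup. -/
theorem Hyp.fact_full {q : ℕ} (hqm : ¬ q ∣ m) {y : G} (hy : (cz y).index = m) :
    (Nat.card (cz y)).factorization q = (Nat.card G).factorization q := by
  rw [fact_card_mul (cz y) q, hy, Nat.factorization_eq_zero_of_not_dvd hqm, add_zero]

theorem Hyp.inf_index {x y : G} (hx : (cz x).index = n) (hy : (cz y).index = m) :
    (cz x ⊓ cz y).index = n * m := by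
  refine Nat.dvd_antisymm ?_ (hh.hcop.mul_dvd_of_dvd_of_dvd
    (hx ▸ index_dvd_of_le inf_le_left) (hy ▸ index_dvd_of_le inf_le_right))
  have h1 := relIndex_mul_index (inf_le_left : cz x ⊓ cz y ≤ cz x)
  rw [inf_relIndex_left, hx] at h1
  have h2 : (cz y).relIndex (cz x) ≤ m := by
    rw [← hy, ← relIndex_top_right]
    exact relIndex_le_of_le_right le_top (by rw [relIndex_top_right]; exact index_ne_zero_of_finite)
  have h3 : m ∣ (cz y).relIndex (cz x) := hh.hcop.symm.dvd_of_dvd_mul_right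
    (h1.symm ▸ hy ▸ index_dvd_of_le inf_le_right)
  have h4 : (cz y).relIndex (cz x) ≠ 0 := index_ne_zero_of_finite (H := (cz y).subgroupOf (cz x))
  have h5 := Nat.le_of_dvd (Nat.pos_of_ne_zero h4) h3
  rw [← h1, show (cz y).relIndex (cz x) = m by omega, mul_comm]

/-- `G = C(x) C(y)` when the indices are coprime. -/
theorem Hyp.exists_factor {x y : G} (hx : (cz x).index = n) (hy : (cz y).index = m) (g : G) :
    ∃ a ∈ cz x, ∃ b ∈ cz y, g = a * b := by
  set f : cz x ⧸ (cz y).subgroupOf (cz x) → G ⧸ cz y :=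
    Quotient.lift (fun a : cz x => ((a : G) : G ⧸ cz y))
      (fun a b h => QuotientGroup.eq.2 (QuotientGroup.leftRel_apply.1 h :)) with hf
  have hinj : Function.Injective f := by
    intro a b
    induction a using QuotientGroup.induction_on with | _ a => ?_
    induction b using QuotientGroup.induction_on with | _ b => ?_
    intro h
    exact QuotientGroup.eq.2 (QuotientGroup.eq.1 (show ((a : G) : G ⧸ cz y) = ((b : G) : G ⧸ cz y) from h) :)
  have hcard : Nat.card (G ⧸ cz y) ≤ Nat.card (cz x ⧸ (cz y).subgroupOf (cz x)) := by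
    rw [← index_eq_card, ← index_eq_card, hy]
    have h1 := relIndex_mul_index (inf_le_left : cz x ⊓ cz y ≤ cz x)
    rw [inf_relIndex_left, hx, hh.inf_index hx hy, mul_comm n m] at h1
    exact (mul_right_cancel₀ hh.npos h1).ge
  obtain ⟨q, hq⟩ := (hinj.bijective_of_nat_card_le hcard).2 (g : G ⧸ cz y)
  induction q using QuotientGroup.induction_on with | _ a => ?_
  exact ⟨a, a.2, (a : G)⁻¹ * g, QuotientGroup.eq.1 (show ((a : G) : G ⧸ cz y) = (g : G ⧸ cz y) from hq), by group⟩

/-- Commuting elements of class sizes `n` and `m` have commuting classes. -/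
theorem Hyp.conj_comm {x y : G} (hx : (cz x).index = n) (hy : (cz y).index = m) (h : y ∈ cz x)
    (g : G) : g * y * g⁻¹ ∈ cz x := by
  obtain ⟨a, ha, b, hb, rfl⟩ := hh.exists_factor hx hy g
  have e : a * b * y * (a * b)⁻¹ = a * y * a⁻¹ := by
    rw [mul_assoc a b y, mem_cz.1 hb]; group
  rw [e]
  exact mul_mem (mul_mem ha h) (inv_mem ha)

theorem Hyp.comm_of_conj {x y : G} (hx : (cz x).index = n) (hy : (cz y).index = m) {g : G}
    (h : g * y * g⁻¹ ∈ cz x) : y ∈ cz x := by
  have hy' : (cz (g * y * g⁻¹)).index = m := by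
    rw [cz_conj, index_map_of_bijective (MulEquiv.bijective _), hy]
  have := hh.conj_comm hx hy' h g⁻¹
  rwa [show g⁻¹ * (g * y * g⁻¹) * g⁻¹⁻¹ = y by group] at this

theorem Hyp.comm_of_not_dvd {r : ℕ} [Fact r.Prime] (hrm : ¬ r ∣ m) {x : G} (hxe : IsEl r x)
    (hx : (cz x).index = n) {y : G} (hy : (cz y).index = m) : y ∈ cz x := by
  obtain ⟨k, -, hk⟩ := conj_mem_of_fact (H := cz y) (K := ⊤) le_top
    (by rw [Subgroup.card_top, hh.fact_full hrm hy]) hxe (mem_top x)
  have := (conj_mem_cz_iff (g := k⁻¹)).2 (mem_cz_symm hk)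
  rw [show k⁻¹ * (k * x * k⁻¹) * k⁻¹⁻¹ = x by group] at this
  exact hh.comm_of_conj hx hy this

/-- A class size `n * m` centralizer centralizes its elements of coprime order. -/
theorem Hyp.nm_le {t w : G} (ht : (cz t).index = n * m) (hw : w ∈ cz t)
    (hcop : (orderOf t).Coprime (orderOf w)) : cz t ≤ cz w := by
  have hc : Commute t w := (mem_cz.1 hw).symm
  have hle : cz (t * w) ≤ cz t := cz_mul_le_left hc hcop
  have hd : n * m ∣ (cz (t * w)).index := ht ▸ idx_dvd_of_le hle
  have hidx : (cz (t * w)).index = n * m := by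
    rcases hh.multiple_n (dvd_trans (dvd_mul_right n m) hd) with e | e
    · exact absurd (e ▸ hd) (hh.not_dvd (Or.inr rfl))
    · exact e
  have e := eq_of_le_of_index_eq hle (hidx.trans ht.symm)
  rw [cz_mul_eq hc hcop] at e
  exact inf_eq_left.1 e

end Cfsg.Agent.FGS4.FourSizes
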