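import Cfsg.Agent.FGS4.FourSizes.NoBad
import Cfsg.Agent.OddChar.AxB
import Mathlib.GroupTheory.Nilpotent
import Mathlib.Algebra.IsPrimePow

/-! # Class sizes `1`, `n`, `m`, `n * m`: the group is nilpotent -/

set_option linter.style.haveILetI false

namespace Cfsg.Agent.FGS4.FourSizes

open Subgroup ThreeSizes

variable {G : Type*} [Group G] [Finite G] {n m : ℕ}

/-- A prime-power element of class size `n` with prime outside `m` makes `m` a prime power. -/
theorem Hyp.good_main (hh : Hyp G n m) {r : ℕ} [hr : Fact r.Prime] (hrm : ¬ r ∣ m) {x : G}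
    (hxe : IsEl r x) (hx : (cz x).index = n) :
    Group.IsNilpotent (cz x) ∧
      ∃ s, s.Prime ∧ ∃ k, m = s ^ k ∧ ∃ v : G, IsEl s v ∧ (cz v).index = m := by
  classical
  set C := cz x with hC
  -- class sizes of `r'`-elements in `C`
  have hA : ∀ z : G, z ∈ C → (orderOf z).Coprime r →
      ((cz z).subgroupOf C).index = 1 ∨ ((cz z).subgroupOf C).index = m := by
    intro z hz hzr
    obtain ⟨j, hj⟩ := hxe
    have e := cz_mul_eq (mem_cz.1 hz : Commute z x).symm (by rw [hj]; exact hzr.symm.pow_left j)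
    have h1 := relIndex_mul_index (inf_le_left : cz x ⊓ cz z ≤ cz x)
    rw [inf_relIndex_left, hx, ← e] at h1
    have hd : n ∣ (cz (x * z)).index := ⟨_, h1.symm.trans (mul_comm _ _)⟩
    rcases hh.multiple_n hd with e' | e' <;> rw [e'] at h1
    · exact Or.inl (mul_right_cancel₀ hh.npos (by rw [one_mul]; exact h1))
    · exact Or.inr (mul_right_cancel₀ hh.npos (by rw [mul_comm m n]; exact h1))
  have hdec : ∀ y : C, (orderOf y).Coprime r →
      ∃ S : Sylow r C, ∀ s ∈ (S : Subgroup C), s * y = y * s := by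
    intro y hy
    set A := (cz (y : G)).subgroupOf C with hAdef
    obtain ⟨S⟩ : Nonempty (Sylow r A) := inferInstance
    have hcard : Nat.card ((S : Subgroup A).map A.subtype) = r ^ (Nat.card C).factorization r := by
      rw [card_map_of_injective A.subtype_injective, sylow_card_eq S, fact_card_mul A r]
      congr 1
      rcases hA y y.2 (by rwa [Subgroup.orderOf_coe]) with e | e <;> rw [e]
      · simp
      · rw [Nat.factorization_eq_zero_of_not_dvd hrm, add_zero]
    refine ⟨Sylow.ofCard _ hcard, fun s hs => ?_⟩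
    rw [Sylow.coe_ofCard] at hs
    exact Subtype.ext (mem_cz.1 (mem_subgroupOf.1 (map_subtype_le _ hs)))
  obtain ⟨Q⟩ : Nonempty (Sylow r C) := inferInstance
  obtain ⟨hQn, hQc⟩ := decompose hdec Q
  -- two class sizes in a complement
  have key : ∀ K : Subgroup C, K.IsComplement' (Q : Subgroup C) → (Nat.card K).Coprime r →
      FGS3.TwoClassSizes.TwoSizes K m ∧
        ∀ y : K, (centralizer ({y} : Set K)).index = ((cz ((y : C) : G)).subgroupOf C).index := by
    intro K hKc hK
    have hqK : ∀ y : K, (orderOf (y : C)).Coprime r := fun y => by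
      rw [Subgroup.orderOf_coe]
      exact hK.coprime_dvd_left (orderOf_dvd_natCard y)
    have heq : ∀ y : K, (centralizer ({y} : Set K)).index = ((cz ((y : C) : G)).subgroupOf C).index := by
      intro y
      set A := (cz ((y : C) : G)).subgroupOf C with hAdef
      have hcent : centralizer ({y} : Set K) = A.subgroupOf K := by
        ext w
        rw [mem_centralizer_singleton_iff, mem_subgroupOf, hAdef, mem_subgroupOf, mem_cz]
        exact ⟨fun e => congrArg (fun z : K => ((z : C) : G)) e, fun e => Subtype.ext (Subtype.ext e)⟩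
      have hQA : (Q : Subgroup C) ≤ A := fun s hs => by
        rw [hAdef, mem_subgroupOf, mem_cz]
        exact congrArg Subtype.val (hQc _ (hqK y) s hs)
      rw [hcent, index_eq_card, index_eq_card]
      refine Nat.card_congr (Equiv.ofBijective (Quotient.lift (fun k : K => ((k : C) : C ⧸ A))
        (fun a b h => QuotientGroup.eq.2 (QuotientGroup.leftRel_apply.1 h :))) ⟨?_, ?_⟩)
      · intro a b
        induction a using QuotientGroup.induction_on with | _ a => ?_
        induction b using QuotientGroup.induction_on with | _ b => ?_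
        intro h
        exact QuotientGroup.eq.2 (QuotientGroup.eq.1 (show ((a : C) : C ⧸ A) = ((b : C) : C ⧸ A) from h) :)
      · intro c
        induction c using QuotientGroup.induction_on with | _ c => ?_
        obtain ⟨⟨k, s⟩, hks⟩ := hKc.2 c
        refine ⟨(k : K ⧸ A.subgroupOf K), ?_⟩
        show ((k : C) : C ⧸ A) = (c : C ⧸ A)
        rw [QuotientGroup.eq, ← hks]
        simpa using hQA s.2
    exact ⟨fun y => by
      rw [heq y]; exact hA _ (y : C).2 (by rw [Subgroup.orderOf_coe]; exact hqK y), heq⟩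
  have hnil : Group.IsNilpotent C := by
    refine isNilpotent_decompose Q hQc fun K hKc hK => ?_
    by_cases hne : ∃ y : K, y ∉ center K
    · obtain ⟨p, hp, hpq⟩ := (key K hKc hK).1.exists_isPGroup_quotient hne
      haveI := Fact.mk hp
      haveI := hpq.isNilpotent
      exact of_quotient_center_nilpotent inferInstance
    · push Not at hne
      letI : CommGroup K := { (inferInstance : Group K) with
        mul_comm := fun a b => Subgroup.mem_center_iff.1 (hne b) a }
      exact CommGroup.isNilpotent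
  refine ⟨hnil, ?_⟩
  obtain ⟨q, hq, v, hve, hv⟩ := hh.symm.exists_el_n
  haveI := Fact.mk hq
  have hvC : v ∈ C := hh.comm_of_not_dvd hrm hxe hx hv
  have hvidx : ((cz v).subgroupOf C).index = m := by
    have h1 := relIndex_mul_index (inf_le_left : cz x ⊓ cz v ≤ cz x)
    rw [inf_relIndex_left, hx, hh.inf_index hx hv, mul_comm n m] at h1
    exact mul_right_cancel₀ hh.npos h1
  obtain ⟨K, hK'⟩ := Subgroup.exists_right_complement'_of_coprime
    (show (Nat.card (Q : Subgroup C)).Coprime (Q : Subgroup C).index from Q.card_coprime_index)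
  have hKr : (Nat.card K).Coprime r := by
    rw [← hK'.symm.index_eq_card]
    exact ((hr.out.coprime_iff_not_dvd).2 Q.not_dvd_index).symm
  have hKc := hK'.symm
  set v' : C := ⟨v, hvC⟩ with hv'
  have hqr : q ≠ r := by
    intro hqr
    subst hqr
    have hvQ : v' ∈ (Q : Subgroup C) := by
      obtain ⟨j, hj⟩ := hve
      obtain ⟨z, hz, e⟩ := mem_sylow_of_normal C Q hvC hj
      have : z = v' := Subtype.ext e
      exact this ▸ hz
    have hKA : K ≤ (cz v).subgroupOf C := fun k hk => by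
      rw [mem_subgroupOf, mem_cz]
      exact (congrArg Subtype.val (hQc k (by
        rw [show orderOf k = orderOf (⟨k, hk⟩ : K) from (Subgroup.orderOf_mk _ _).symm]
        exact hKr.coprime_dvd_left (orderOf_dvd_natCard _)) v' hvQ)).symm
    have hd := index_dvd_of_le hKA
    rw [hvidx, hK'.index_eq_card, sylow_card_eq Q] at hd
    have := hh.hm
    rcases (Nat.dvd_prime_pow hr.out).1 hd with ⟨j, -, hj⟩
    cases j with
    | zero => simp at hj; omega
    | succ j => exact hrm (hj ▸ dvd_pow_self q j.succ_ne_zero)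
  have hvK : v' ∈ K := by
    obtain ⟨⟨k, s⟩, hks⟩ := hKc.2 v'
    have hko : (orderOf (k : C)).Coprime r := by
      rw [Subgroup.orderOf_coe]; exact hKr.coprime_dvd_left (orderOf_dvd_natCard k)
    have hc : Commute (s : C) (k : C) := hQc _ hko _ s.2
    obtain ⟨i, hi⟩ := IsPGroup.iff_orderOf.1 Q.isPGroup' s
    rw [← Subgroup.orderOf_coe] at hi
    have hmem := mem_zpowers_mul_left hc (by rw [hi]; exact (hko.symm).pow_left i)
    rw [hc.eq, show (k : C) * (s : C) = v' from hks] at hmem
    have hd : orderOf (s : C) ∣ orderOf v' := orderOf_dvd_of_mem_zpowers hmem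
    obtain ⟨j, hj⟩ := hve
    have hvo : orderOf v' = q ^ j := by rw [hv', Subgroup.orderOf_mk]; exact hj
    have hs1 : (s : C) = 1 := orderOf_eq_one_iff.1 (Nat.eq_one_of_dvd_coprimes
      (show (r ^ i).Coprime (q ^ j) from Nat.Coprime.pow i j ((Nat.coprime_primes hr.out hq).2 hqr.symm))
      (hi ▸ dvd_rfl) (hvo ▸ hd))
    rw [show v' = (k : C) * (s : C) from hks.symm, hs1, mul_one]
    exact k.2
  obtain ⟨hT, heq⟩ := key K hKc hKr
  have hex : ∃ y : K, (centralizer ({y} : Set K)).index = m := ⟨⟨v', hvK⟩, by rw [heq]; exact hvidx⟩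
  obtain ⟨p, hp, k, hk, -⟩ := hT.structure hh.hm hex
  refine ⟨p, hp.out, k, hk, v, ?_, hv⟩
  -- `v` is a `p`-element
  have hvnc : (⟨v', hvK⟩ : K) ∉ center K := fun h => by
    have := heq ⟨v', hvK⟩
    rw [FGS3.TwoClassSizes.cent_eq_top.2 h, index_top] at this
    have h2 := hh.hm
    have h3 : (1 : ℕ) = m := this.trans hvidx
    omega
  obtain ⟨p', hp', hpq⟩ := hT.exists_isPGroup_quotient ⟨_, hvnc⟩
  haveI := Fact.mk hp'
  obtain ⟨j, hj⟩ := hve
  have hpq' : p' = q := by
    by_contra hne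
    refine hvnc (FGS3.TwoClassSizes.mem_center_of_coprime hpq fun hd => hne ?_)
    rw [Subgroup.orderOf_mk, hv', Subgroup.orderOf_mk, hj] at hd
    exact (Nat.prime_dvd_prime_iff_eq hp' hq).1 (hp'.dvd_of_dvd_pow hd)
  -- the index of a centralizer is a power of `q`
  have hqm : q = p := by
    obtain ⟨y, hy⟩ := hex
    have h1 : (centralizer ({y} : Set K)).index ∣ (center K).index :=
      index_dvd_of_le (FGS3.TwoClassSizes.center_le_cent y)
    obtain ⟨i, hi⟩ := IsPGroup.iff_card.1 hpq
    rw [← index_eq_card] at hi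
    rw [hy, hi, hk] at h1
    have hk0 : k ≠ 0 := by rintro rfl; have := hh.hm; simp at hk; omega
    rw [← hpq']
    exact ((Nat.prime_dvd_prime_iff_eq hp.out hp').1 (hp.out.dvd_of_dvd_pow ((dvd_pow_self p hk0).trans h1))).symm
  exact ⟨j, hqm ▸ hj⟩

theorem Hyp.conclusion (hh : Hyp G n m) : Group.IsNilpotent G ∧ IsPrimePow n ∧ IsPrimePow m := by
  have step : ∀ {n m : ℕ}, Hyp G n m →
      (∃ r, r.Prime ∧ ¬ r ∣ m ∧ ∃ x : G, IsEl r x ∧ (cz x).index = n) →
      (∃ r, r.Prime ∧ ¬ r ∣ n ∧ ∃ x : G, IsEl r x ∧ (cz x).index = m) := by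
    intro n m h ⟨r, hr, hrm, x, hxe, hx⟩
    haveI := Fact.mk hr
    obtain ⟨-, s, hs, k, hk, v, hve, hv⟩ := h.good_main hrm hxe hx
    have hk0 : k ≠ 0 := by rintro rfl; have := h.hm; simp at hk; omega
    exact ⟨s, hs, h.symm.not_dvd_m hs (hk ▸ dvd_pow_self s hk0), v, hve, hv⟩
  obtain ⟨hL, hR⟩ : (∃ r, r.Prime ∧ ¬ r ∣ m ∧ ∃ x : G, IsEl r x ∧ (cz x).index = n) ∧
      (∃ r, r.Prime ∧ ¬ r ∣ n ∧ ∃ x : G, IsEl r x ∧ (cz x).index = m) := by
    rcases hh.exists_good with h | h
    · exact ⟨h, step hh h⟩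
    · exact ⟨step hh.symm h, h⟩
  obtain ⟨r, hr, hrm, x₀, hx₀e, hx₀⟩ := hL
  obtain ⟨s, hs, hsn, v₀, hv₀e, hv₀⟩ := hR
  haveI := Fact.mk hr; haveI := Fact.mk hs
  obtain ⟨-, q, hq, b, hb, v, hve, hv⟩ := hh.good_main hrm hx₀e hx₀
  obtain ⟨-, p, hp, a, ha, x, hxe, hx⟩ := hh.symm.good_main hsn hv₀e hv₀
  have ha0 : a ≠ 0 := by rintro rfl; have := hh.hn; simp at ha; omega
  have hb0 : b ≠ 0 := by rintro rfl; have := hh.hm; simp at hb; omega
  refine ⟨?_, ⟨p, a, hp.prime, Nat.pos_of_ne_zero ha0, ha.symm⟩,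
    ⟨q, b, hq.prime, Nat.pos_of_ne_zero hb0, hb.symm⟩⟩
  -- every Sylow subgroup is normal
  have normal_of : ∀ {n m : ℕ}, Hyp G n m → ∀ {p q : ℕ} [Fact p.Prime] [Fact q.Prime], ¬ p ∣ m →
      ¬ q ∣ n → ∀ (x v : G), IsEl p x → (cz x).index = n → IsEl q v → (cz v).index = m →
      ∀ {l : ℕ} [Fact l.Prime], ¬ l ∣ m → l ≠ q → ∀ P : Sylow l G, (P : Subgroup G).Normal := by
    intro n m h p q _ hqF hpm hqn x v hxe hx hve hv l hlF hlm hlq P
    haveI := (h.good_main hpm hxe hx).1
    haveI := (h.symm.good_main hqn hve hv).1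
    set L := normalClosure ({v} : Set G) with hL
    have hLn : L.Normal := normalClosure_normal
    have hLq : L ≤ part q (cz x) := by
      rw [hL, normalClosure, closure_le]
      intro z hz
      obtain ⟨v', rfl, hc⟩ := Group.mem_conjugatesOfSet_iff.1 hz
      obtain ⟨c, rfl⟩ := isConj_iff.1 hc
      exact mem_part (hve.conj c) (h.conj_comm hx hv (h.comm_of_not_dvd hpm hxe hx hv) c)
    set P₀ := part l (cz v) with hP₀
    have hcard : Nat.card P₀ = l ^ (Nat.card G).factorization l := by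
      rw [hP₀, card_part, h.fact_full hlm hv]
    have hLP : ⁅L, P₀⁆ = ⊥ := by
      refine OddChar.axb_lemma (p := q) (T := zpowers v) (X := P₀) ?_ ?_ ?_ L
        ((part_pgroup q (cz x)).to_le hLq) ?_ ?_ ?_
      · obtain ⟨k, hk⟩ := hve; exact pgroup_zpowers hk
      · rw [hcard]
        exact fun hd => hlq ((Nat.prime_dvd_prime_iff_eq hqF.out hlF.out).1 (hqF.out.dvd_of_dvd_pow hd)).symm
      · rw [commutator_eq_bot_iff_le_centralizer, zpowers_le, mem_centralizer_iff]
        exact fun z hz => mem_cz.1 (part_le l _ hz)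
      · rw [Subgroup.normalizer_eq_top_iff.mpr hLn]; exact le_top
      · rw [Subgroup.normalizer_eq_top_iff.mpr hLn]; exact le_top
      · rw [commutator_eq_bot_iff_le_centralizer]
        intro u hu
        rw [Subgroup.mem_inf] at hu
        rw [mem_centralizer_iff]
        intro z hz
        have huv : u ∈ cz v := mem_cz.2 (mem_centralizer_iff.1 hu.2 v (mem_zpowers v)).symm
        exact (commute_in (part_le l _ hz) huv (IsEl.coprime'
          (isEl_of_mem_pgroup (part_pgroup l _) hz)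
          (isEl_of_mem_pgroup (part_pgroup q _) (hLq hu.1)) hlq)).eq
    rw [commutator_eq_bot_iff_le_centralizer] at hLP
    have hall : ∀ P' : Sylow l G, (P' : Subgroup G) = P₀ := by
      intro P'
      obtain ⟨c, hc⟩ := MulAction.exists_smul_eq G (Sylow.ofCard P₀ hcard) P'
      refine eq_of_le_of_card_ge (fun z hz => ?_) (by rw [hcard, P'.card_eq_multiplicity])
      have hz' : ∃ z₀ ∈ P₀, c * z₀ * c⁻¹ = z := by
        rw [← hc, Sylow.coe_subgroup_smul, Sylow.coe_ofCard] at hz
        obtain ⟨z₀, hz₀, e⟩ := hz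
        exact ⟨z₀, hz₀, e⟩
      refine mem_part (isEl_of_mem_pgroup P'.isPGroup' hz) ?_
      obtain ⟨z₀, hz₀, rfl⟩ := hz'
      have hvc : c⁻¹ * v * c ∈ L := by
        have := hLn.conj_mem v (subset_normalClosure rfl) c⁻¹
        rwa [inv_inv] at this
      have h1 : c⁻¹ * v * c * z₀ = z₀ * (c⁻¹ * v * c) := mem_centralizer_iff.1 (hLP hvc) z₀ hz₀ |>.symm
      refine mem_cz.2 ?_
      calc c * z₀ * c⁻¹ * v = c * (z₀ * (c⁻¹ * v * c)) * c⁻¹ := by group
        _ = c * (c⁻¹ * v * c * z₀) * c⁻¹ := by rw [h1]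
        _ = v * (c * z₀ * c⁻¹) := by group
    have : Subsingleton (Sylow l G) := ⟨fun S T => Sylow.ext ((hall S).trans (hall T).symm)⟩
    exact Sylow.normal_of_subsingleton P
  haveI := Fact.mk hp; haveI := Fact.mk hq
  have hpn : p ∣ n := ha ▸ dvd_pow_self p ha0
  have hqm : q ∣ m := hb ▸ dvd_pow_self q hb0
  refine ((Group.isNilpotent_of_finite_tfae (G := G)).out 0 3).mpr ?_
  intro l hl P
  haveI : Fact l.Prime := hl
  by_cases hlq : l = q
  · subst hlq
    exact normal_of hh.symm (hh.symm.not_dvd_m hq hqm) (hh.not_dvd_m hp hpn) v x hve hv hxe hx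
      (hh.symm.not_dvd_m hq hqm) (fun h => hh.not_dvd_m hp hpn (h ▸ hqm)) P
  · refine normal_of hh (hh.not_dvd_m hp hpn) (hh.symm.not_dvd_m hq hqm) x v hxe hx hve hv ?_ hlq P
    exact fun hd => hlq ((Nat.prime_dvd_prime_iff_eq hl.out hq).1 (hl.out.dvd_of_dvd_pow (hb ▸ hd)))

end Cfsg.Agent.FGS4.FourSizes
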