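import Cfsg.Agent.FGS4.FourSizes.Basic

/-! # Class sizes `1`, `n`, `m`, `n * m`: some prime-power element has a class size prime to its order's complement -/

set_option linter.style.haveILetI false

namespace Cfsg.Agent.FGS4.FourSizes

open Subgroup ThreeSizes

variable {G : Type*} [Group G] [Finite G] {n m : ℕ}

/-- All prime-power elements of class size `n` have their prime dividing `m`, and conversely. -/
structure Bad (G : Type*) [Group G] (n m : ℕ) : Prop where
  hyp : Hyp G n m
  left : ∀ (q : ℕ), q.Prime → ∀ x : G, IsEl q x → (cz x).index = n → q ∣ m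
  right : ∀ (q : ℕ), q.Prime → ∀ x : G, IsEl q x → (cz x).index = m → q ∣ n

omit [Finite G] in
theorem Bad.symm (hb : Bad G n m) : Bad G m n := ⟨hb.hyp.symm, hb.right, hb.left⟩

omit [Finite G] in
theorem Bad.ne (hb : Bad G n m) {r s : ℕ} [hr : Fact r.Prime] [hs : Fact s.Prime] {x y : G}
    (hxe : IsEl r x) (hx : (cz x).index = n) (hye : IsEl s y) (hy : (cz y).index = m) : r ≠ s :=
  fun h => hb.hyp.not_dvd_m hs.out (hb.right s hs.out y hye hy) (h ▸ hb.left r hr.out x hxe hx)

/-- The conjugates of `C(y)` would cover `C(x)`. -/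
theorem Bad.cover (hb : Bad G n m) {r s : ℕ} [hr : Fact r.Prime] [hs : Fact s.Prime] {x y : G}
    (hxe : IsEl r x) (hx : (cz x).index = n) (hye : IsEl s y) (hy : (cz y).index = m) (hyK : y ∈ cz x)
    (hall : ∀ a : G, IsEl r a → (cz a).index = n → y ∈ cz a) : False := by
  have hh := hb.hyp
  have hsn := hb.right s hs.out y hye hy
  have hsm := hh.not_dvd_m hs.out hsn
  have hrs := hb.ne hxe hx hye hy
  have hne : (cz y).subgroupOf (cz x) ≠ ⊤ := fun h =>
    hh.not_dvd (Or.inl rfl) (hx ▸ hy ▸ index_dvd_of_le (subgroupOf_eq_top.1 h))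
  obtain ⟨g, hg⟩ := exists_notMem_conj _ hne
  obtain ⟨a, b, hab, hcomm, hae, hbr, hamem, hbmem⟩ := exists_parts (r := r) (g : G)
  have haK : a ∈ cz x := (zpowers_le.2 g.2) hamem
  have hbK : b ∈ cz x := (zpowers_le.2 g.2) hbmem
  suffices h : ∃ k ∈ cz x, (g : G) ∈ cz (k * y * k⁻¹) by
    obtain ⟨k, hk, hgk⟩ := h
    apply hg ⟨k, hk⟩
    rw [mem_subgroupOf]
    have := (conj_mem_cz_iff (g := k⁻¹)).2 hgk
    rw [show k⁻¹ * (k * y * k⁻¹) * k⁻¹⁻¹ = y by group] at this
    simpa using this
  have hamC : ∀ k : G, (cz a).index ≠ n * m → a ∈ cz (k * y * k⁻¹) := by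
    intro k hanm
    rcases hh.idx a with e | e | e | e
    · exact center_le_cz _ (idx_one_iff.1 e)
    · exact mem_cz_symm (hh.conj_comm e hy (hall a hae e) k)
    · exact absurd (hb.left r hr.out x hxe hx) (hh.not_dvd_m hr.out (hb.right r hr.out a hae e))
    · exact absurd e hanm
  by_cases hanm : (cz a).index = n * m
  · -- the `s`-elements of `C(a)` lie in `C(x)`
    have hU : ∀ u ∈ cz a, IsEl s u → cz a ≤ cz u := fun u hu hue =>
      hh.nm_le hanm hu (IsEl.coprime' hae hue hrs)
    have hf : (Nat.card (cz x)).factorization s ≤ (Nat.card (cz a ⊓ cz x : Subgroup G)).factorization s := by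
      obtain ⟨S⟩ : Nonempty (Sylow s (cz a)) := inferInstance
      have hS : IsPGroup s ((S : Subgroup (cz a)).map (cz a).subtype) := S.isPGroup'.map _
      have hle : (S : Subgroup (cz a)).map (cz a).subtype ≤ cz a ⊓ cz x := fun u hu =>
        ⟨map_subtype_le _ hu, mem_cz_symm
          (hU u (map_subtype_le _ hu) (isEl_of_mem_pgroup hS hu) (mem_cz_symm haK))⟩
      have h1 := le_fact_of_pgroup hS hle
      rw [card_map_of_injective (cz a).subtype_injective, sylow_card_eq S,
        Nat.pow_le_pow_iff_right hs.out.one_lt] at h1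
      exact (hh.fact_ge hsm hx a).trans h1
    obtain ⟨k, hk, hky⟩ := conj_mem_of_fact inf_le_right hf hye hyK
    refine ⟨k, hk, ?_⟩
    have hle := hU _ hky.1 (hye.conj k)
    rw [hab]
    exact mul_mem (hle (self_mem_cz a)) (hle (mem_cz.2 hcomm.eq.symm))
  · obtain ⟨k, hk, hky⟩ : ∃ k ∈ cz x, k * y * k⁻¹ ∈ cz x ⊓ cz b := by
      obtain ⟨j, hj⟩ := hxe
      have hcop : (orderOf x).Coprime (orderOf b) := by rw [hj]; exact (hbr.symm).pow_left j
      have e := cz_mul_eq (mem_cz.1 hbK : Commute b x).symm hcop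
      refine conj_mem_of_fact inf_le_left ?_ hye hyK
      rw [← e]
      exact hh.fact_ge hsm hx _
    refine ⟨k, hk, ?_⟩
    rw [hab]
    exact mul_mem (hamC k hanm) (mem_cz_symm hky.2)

/-- Some pair of prime-power elements of class sizes `n` and `m` does not commute. -/
theorem Bad.exists_noncomm (hb : Bad G n m) {r : ℕ} [Fact r.Prime] {a : G} (hae : IsEl r a)
    (ha : (cz a).index = n) :
    ∃ s, s.Prime ∧ ∃ u : G, IsEl s u ∧ (cz u).index = m ∧ u ∉ cz a := by
  by_contra hne
  push Not at hne
  obtain ⟨s, hs, u, hue, hu⟩ := hb.hyp.symm.exists_el_n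
  haveI := Fact.mk hs
  exact hb.symm.cover hue hu hae ha (mem_cz_symm (hne s hs u hue hu))
    fun v hve hv => mem_cz_symm (hne s hs v hve hv)

/-- A non-commuting pair has no class size `n * m` element in both centralizers. -/
theorem Bad.nm_false (hb : Bad G n m) {r s q : ℕ} [Fact r.Prime] [Fact s.Prime] [Fact q.Prime]
    {a u t : G} (hae : IsEl r a) (ha : (cz a).index = n) (hue : IsEl s u) (hu : (cz u).index = m)
    (hau : u ∉ cz a) (hte : IsEl q t) (ht : (cz t).index = n * m) (hta : t ∈ cz a) (htu : t ∈ cz u) :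
    False := by
  by_cases hq : q = r
  · have hne : q ≠ s := hq ▸ hb.ne hae ha hue hu
    exact hau (mem_cz_symm
      (hb.hyp.nm_le ht (mem_cz_symm htu) (IsEl.coprime' hte hue hne) (mem_cz_symm hta)))
  · exact hau (hb.hyp.nm_le ht (mem_cz_symm hta) (IsEl.coprime' hte hae hq) (mem_cz_symm htu))

/-- A non-commuting pair has a common commuting element of class size `n`. -/
theorem Bad.exists_x (hb : Bad G n m) {r s : ℕ} [hr : Fact r.Prime] [hs : Fact s.Prime]
    {a u : G} (hae : IsEl r a) (ha : (cz a).index = n) (hue : IsEl s u) (hu : (cz u).index = m)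
    (hau : u ∉ cz a) :
    ∃ q, q.Prime ∧ ∃ x : G, IsEl q x ∧ (cz x).index = n ∧ x ∈ cz a ∧ x ∈ cz u := by
  have hh := hb.hyp
  set E := cz a ⊓ cz u with hE
  have hEidx : E.index = n * m := hh.inf_index ha hu
  have hnc : ¬ E ≤ center G := by
    intro hle
    have e : E = center G := le_antisymm hle (le_inf (center_le_cz a) (center_le_cz u))
    obtain ⟨g, hg⟩ := hh.exnm
    have e' : center G = cz g := eq_of_le_of_index_eq (center_le_cz g) (by rw [← e, hEidx, hg])
    have hgc : g ∈ center G := e' ▸ self_mem_cz g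
    rw [idx_one_iff.2 hgc] at hg
    have := hh.hn
    exact absurd (Nat.eq_one_of_mul_eq_one_right hg.symm) (by omega)
  by_contra hne
  push Not at hne
  refine hnc (le_center_of_els fun q hq t htE hte => ?_)
  by_contra htc
  haveI := Fact.mk hq
  rcases hh.cases htc with e | e | e
  · exact hne q hq t hte e htE.1 htE.2
  · -- an element of class size `m` in `C(a)` puts noncentral `r`-elements into `E`
    have hqr : r ≠ q := hb.ne hae ha hte e
    have hrn : ¬ r ∣ n := hh.symm.not_dvd_m hr.out (hb.left r hr.out a hae ha)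
    have hc : Commute a t := (mem_cz.1 htE.1).symm
    have e1 := cz_mul_eq hc (IsEl.coprime' hae hte hqr)
    have hidx : (cz (a * t)).index = n * m := by rw [e1]; exact hh.inf_index ha e
    have h1 : (Nat.card (center G)).factorization r < (Nat.card (cz (a * t))).factorization r :=
      center_fact_lt (center_le_cz _) hae (e1 ▸ ⟨self_mem_cz a, mem_cz_symm htE.1⟩) (hh.noncentral_n ha)
    have h2 : (Nat.card (cz (a * t))).factorization r = (Nat.card E).factorization r := by
      have h3 := hh.fact_nm hidx r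
      have h4 := fact_card_mul E r
      rw [hEidx, Nat.factorization_mul hh.npos hh.mpos] at h4
      simp only [Finsupp.coe_add, Pi.add_apply] at h4
      omega
    obtain ⟨w, hwE, hwe, hwc⟩ := exists_noncentral_of_lt (H := E) (h2 ▸ h1)
    rcases hh.cases hwc with e' | e' | e'
    · exact hne r hr.out w hwe e' hwE.1 hwE.2
    · exact hrn (hb.right r hr.out w hwe e')
    · exact hb.nm_false hae ha hue hu hau hwe e' hwE.1 hwE.2
  · exact hb.nm_false hae ha hue hu hau hte e htE.1 htE.2

/-- No element of class size `n` has a normal closure of least order. -/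
theorem Bad.false_of_min (hb : Bad G n m) {r : ℕ} [hr : Fact r.Prime] {a : G} (hae : IsEl r a)
    (ha : (cz a).index = n)
    (hmin : ∀ (q : ℕ), q.Prime → ∀ t : G, IsEl q t → ((cz t).index = n ∨ (cz t).index = m) →
      Nat.card (normalClosure ({a} : Set G)) ≤ Nat.card (normalClosure ({t} : Set G))) : False := by
  have hh := hb.hyp
  obtain ⟨s, hs, u, hue, hu, hau⟩ := hb.exists_noncomm hae ha
  haveI := Fact.mk hs
  obtain ⟨r₀, hr₀, x, hxe, hx, hxa, hxu⟩ := hb.exists_x hae ha hue hu hau
  haveI := Fact.mk hr₀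
  have hsm := hh.not_dvd_m hs (hb.right s hs u hue hu)
  set A := normalClosure ({a} : Set G) with hA
  set X := normalClosure ({x} : Set G) with hX
  have hAn : A.Normal := normalClosure_normal
  have hXn : X.Normal := normalClosure_normal
  have haA : a ∈ A := subset_normalClosure rfl
  have hxX : x ∈ X := subset_normalClosure rfl
  have hXu : X ≤ cz u := by
    rw [hX, normalClosure, closure_le]
    intro z hz
    obtain ⟨x', rfl, hconj⟩ := Group.mem_conjugatesOfSet_iff.1 hz
    obtain ⟨c, rfl⟩ := isConj_iff.1 hconj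
    exact hh.symm.conj_comm hu hx hxu c
  set W := A ⊓ X with hW
  have hWn : W.Normal := normal_inf_normal A X
  by_cases hWc : W ≤ center G
  · -- the `s`-elements centralizing `a * x` centralize both
    have hle : (Nat.card (cz x)).factorization s ≤ (Nat.card (cz a ⊓ cz x : Subgroup G)).factorization s := by
      obtain ⟨S⟩ : Nonempty (Sylow s (cz (a * x))) := inferInstance
      have hS : IsPGroup s ((S : Subgroup (cz (a * x))).map (cz (a * x)).subtype) := S.isPGroup'.map _
      have hle : (S : Subgroup (cz (a * x))).map (cz (a * x)).subtype ≤ cz a ⊓ cz x := by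
        intro g hg
        have hgc : g * (a * x) = a * x * g := mem_cz.1 (map_subtype_le _ hg)
        have hz : a⁻¹ * (g * a * g⁻¹) = x * (g * x * g⁻¹)⁻¹ := by
          calc a⁻¹ * (g * a * g⁻¹) = a⁻¹ * (g * (a * x)) * x⁻¹ * g⁻¹ := by group
            _ = a⁻¹ * (a * x * g) * x⁻¹ * g⁻¹ := by rw [hgc]
            _ = x * (g * x * g⁻¹)⁻¹ := by group
        have hzW : x * (g * x * g⁻¹)⁻¹ ∈ W :=
          Subgroup.mem_inf.2 ⟨hz ▸ A.mul_mem (A.inv_mem haA) (hAn.conj_mem a haA g),
            X.mul_mem hxX (X.inv_mem (hXn.conj_mem x hxX g))⟩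
        have hzc := inv_mem (hWc hzW)
        have hc1 := comm_of_central_coprime hzc (show g * x * g⁻¹ = (x * (g * x * g⁻¹)⁻¹)⁻¹ * x by group)
          (IsEl.coprime' (isEl_of_mem_pgroup hS hg) hxe (hb.ne hxe hx hue hu).symm)
        have hgx : g * x = x * g := by
          have e : g * x * g⁻¹ = x := by
            rw [show g * x * g⁻¹ = (x * (g * x * g⁻¹)⁻¹)⁻¹ * x by group, hc1, one_mul]
          calc g * x = (g * x * g⁻¹) * g := by group
            _ = x * g := by rw [e]
        refine ⟨mem_cz.2 ?_, mem_cz.2 hgx⟩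
        have e2 : g * a * x = a * g * x := by
          rw [mul_assoc g a x, hgc, mul_assoc a x g, ← hgx, mul_assoc]
        exact mul_right_cancel e2
      have h1 := le_fact_of_pgroup hS hle
      rw [card_map_of_injective (cz (a * x)).subtype_injective, sylow_card_eq S,
        Nat.pow_le_pow_iff_right hs.one_lt] at h1
      exact (hh.fact_ge hsm hx _).trans h1
    obtain ⟨k, -, hku⟩ := conj_mem_of_fact inf_le_right hle hue (mem_cz_symm hxu)
    exact hau (hh.comm_of_conj ha hu hku.1)
  have hWu : W ≤ cz u := inf_le_right.trans hXu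
  -- the prime-power elements of `W` are of class size `n * m`
  have hWnm : ∀ (q : ℕ), q.Prime → ∀ t ∈ W, IsEl q t → t ∉ center G → (cz t).index = n * m := by
    intro q hq t htW hte htc
    have key : ((cz t).index = n ∨ (cz t).index = m) → False := by
      intro h
      have hsub : normalClosure ({t} : Set G) ≤ W := normalClosure_le_normal (by simpa using htW)
      have h1 : W = A := eq_of_le_of_card_ge inf_le_left
        ((hmin q hq t hte h).trans (card_le_of_le hsub))
      exact hau (mem_cz_symm (hWu (h1.symm ▸ haA)))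
    rcases hh.cases htc with e | e | e
    · exact (key (Or.inl e)).elim
    · exact (key (Or.inr e)).elim
    · exact e
  have hWa : ∀ (q : ℕ), q.Prime → ∀ t ∈ W, IsEl q t → t ∈ cz a → t ∈ center G := by
    intro q hq t htW hte hta
    haveI := Fact.mk hq
    by_contra htc
    exact hb.nm_false hae ha hue hu hau hte (hWnm q hq t htW hte htc) hta (hWu htW)
  have hWq : ∀ (q : ℕ), q.Prime → ¬ q ∣ n → ∀ t ∈ W, IsEl q t → t ∈ center G := by
    intro q hq hqn t htW hte
    haveI := Fact.mk hq
    obtain ⟨k, -, hk⟩ := conj_mem_of_fact (H := cz a) (K := ⊤) le_top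
      (by rw [Subgroup.card_top, hh.symm.fact_full hqn ha]) hte (mem_top t)
    exact conj_mem_center_iff.1 (hWa q hq _ (hWn.conj_mem t htW k) (hte.conj k) hk)
  obtain ⟨w₀, hw₀W, hw₀c⟩ := SetLike.not_le_iff_exists.1 hWc
  obtain ⟨q, hq, w, hwz, hwe, hwc, -⟩ := exists_el_of_notMem_center hw₀c
  haveI := Fact.mk hq
  have hwW : w ∈ W := (zpowers_le.2 hw₀W) hwz
  have hwnm := hWnm q hq w hwW hwe hwc
  have hqn : q ∣ n := by by_contra h; exact hwc (hWq q hq h w hwW hwe)
  have hqr₀ : q ≠ r₀ := fun h => hh.not_dvd_m hq hqn (h ▸ hb.left r₀ hr₀ x hxe hx)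
  -- elements of class size `m` centralize `W`
  have hWv : ∀ v : G, (cz v).index = m → W ≤ cz v := by
    intro v hv
    by_contra hnle
    obtain ⟨t₀, ht₀, ht₀v⟩ := SetLike.not_le_iff_exists.1 hnle
    have hlt : Nat.card (W ⊓ cz v : Subgroup G) < Nat.card W := by
      by_contra h
      exact hnle (inf_eq_left.1 (eq_of_le_of_card_ge inf_le_left (not_lt.1 h)))
    apply hlt.ne
    refine Nat.eq_of_factorization_eq Nat.card_pos.ne' Nat.card_pos.ne' fun p => ?_
    refine le_antisymm (fact_le_of_le inf_le_left p) ?_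
    by_cases hp : p.Prime
    swap
    · rw [Nat.factorization_eq_zero_of_not_prime _ hp]; exact Nat.zero_le _
    haveI := Fact.mk hp
    by_cases hpn : p ∣ n
    · -- a Sylow subgroup of `W` is conjugate into `C(v)`
      obtain ⟨P⟩ : Nonempty (Sylow p W) := inferInstance
      set U := (P : Subgroup W).map W.subtype
      have hU : IsPGroup p U := P.isPGroup'.map _
      obtain ⟨S, hS⟩ := hU.exists_le_sylow
      obtain ⟨Q⟩ : Nonempty (Sylow p (cz v)) := inferInstance
      have hQc : Nat.card ((Q : Subgroup (cz v)).map (cz v).subtype) = p ^ (Nat.card G).factorization p := by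
        rw [card_map_of_injective (cz v).subtype_injective, sylow_card_eq Q,
          hh.fact_full (hh.not_dvd_m hp hpn) hv]
      obtain ⟨c, hc⟩ := MulAction.exists_smul_eq G S (Sylow.ofCard _ hQc)
      have hU' : U.map (MulAut.conj c).toMonoidHom ≤ W ⊓ cz v := by
        rintro _ ⟨z, hz, rfl⟩
        refine ⟨hWn.conj_mem z (map_subtype_le _ hz) c, map_subtype_le (Q : Subgroup (cz v)) ?_⟩
        have e := congrArg (fun T : Sylow p G => (T : Subgroup G)) hc
        simp only [Sylow.coe_subgroup_smul, Sylow.coe_ofCard] at e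
        rw [← e]
        exact ⟨z, hS hz, rfl⟩
      have h1 := le_fact_of_pgroup (hU.map _) hU'
      rwa [card_map_of_injective (MulEquiv.injective _), card_map_of_injective W.subtype_injective,
        sylow_card_eq P, Nat.pow_le_pow_iff_right hp.one_lt] at h1
    · obtain ⟨P⟩ : Nonempty (Sylow p W) := inferInstance
      have hU : IsPGroup p ((P : Subgroup W).map W.subtype) := P.isPGroup'.map _
      have hU' : (P : Subgroup W).map W.subtype ≤ W ⊓ cz v := fun z hz =>
        ⟨map_subtype_le _ hz,
          center_le_cz v (hWq p hp hpn z (map_subtype_le _ hz) (isEl_of_mem_pgroup hU hz))⟩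
      have h1 := le_fact_of_pgroup hU hU'
      rwa [card_map_of_injective W.subtype_injective, sylow_card_eq P,
        Nat.pow_le_pow_iff_right hp.one_lt] at h1
  -- the `r₀`-elements of `C(u)` centralize all elements of class size `m`
  set V : Set G := {v | (cz v).index = m} with hV
  set C := centralizer V with hC
  have hCu : C ≤ cz u := fun g hg => mem_cz.2 (mem_centralizer_iff.1 hg u hu).symm
  have hCn : C.Normal := ⟨fun g hg c => mem_centralizer_iff.2 fun v hv => by
    have hv' : c⁻¹ * v * c ∈ V := by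
      show (cz (c⁻¹ * v * c)).index = m
      have := cz_conj c⁻¹ v
      rw [inv_inv] at this
      rw [this, index_map_of_bijective (MulEquiv.bijective _)]; exact hv
    have := mem_centralizer_iff.1 hg _ hv'
    calc v * (c * g * c⁻¹) = c * (c⁻¹ * v * c * g) * c⁻¹ := by group
      _ = c * (g * (c⁻¹ * v * c)) * c⁻¹ := by rw [this]
      _ = c * g * c⁻¹ * v := by group⟩
  have hf : (Nat.card (cz u)).factorization r₀ ≤ (Nat.card C).factorization r₀ := by
    obtain ⟨S⟩ : Nonempty (Sylow r₀ (cz w)) := inferInstance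
    have hS : IsPGroup r₀ ((S : Subgroup (cz w)).map (cz w).subtype) := S.isPGroup'.map _
    have hle : (S : Subgroup (cz w)).map (cz w).subtype ≤ C := by
      intro t ht
      have htw : t ∈ cz w := map_subtype_le _ ht
      have hle := hh.nm_le hwnm htw (IsEl.coprime' hwe (isEl_of_mem_pgroup hS ht) hqr₀)
      refine mem_centralizer_iff.2 fun v hv => ?_
      exact mem_cz.1 (hle (mem_cz_symm (hWv v hv hwW)))
    have h1 := le_fact_of_pgroup hS hle
    rw [card_map_of_injective (cz w).subtype_injective, sylow_card_eq S,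
      Nat.pow_le_pow_iff_right hr₀.one_lt] at h1
    exact (hh.symm.fact_ge (hh.symm.not_dvd_m hr₀ (hb.left r₀ hr₀ x hxe hx)) hu w).trans h1
  obtain ⟨k, -, hk⟩ := conj_mem_of_fact hCu hf hxe hxu
  have hxC : x ∈ C := by
    have := hCn.conj_mem _ hk k⁻¹
    rwa [show k⁻¹ * (k * x * k⁻¹) * k⁻¹⁻¹ = x by group] at this
  exact hb.symm.cover hue hu hxe hx hxu fun v _ hv => mem_cz.2 (mem_centralizer_iff.1 hxC v hv).symm

theorem Bad.elim (hb : Bad G n m) : False := by
  classical
  let P : ℕ → Prop := fun k => ∃ q, q.Prime ∧ ∃ t : G, IsEl q t ∧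
    ((cz t).index = n ∨ (cz t).index = m) ∧ Nat.card (normalClosure ({t} : Set G)) = k
  have hex : ∃ k, P k := by
    obtain ⟨q, hq, t, hte, ht⟩ := hb.hyp.exists_el_n
    exact ⟨_, q, hq, t, hte, Or.inl ht, rfl⟩
  obtain ⟨q, hq, a, hae, ha, hk⟩ := Nat.find_spec hex
  have hmin : ∀ q' : ℕ, q'.Prime → ∀ t : G, IsEl q' t → ((cz t).index = n ∨ (cz t).index = m) →
      Nat.card (normalClosure ({a} : Set G)) ≤ Nat.card (normalClosure ({t} : Set G)) :=
    fun q' hq' t hte ht => hk.le.trans (Nat.find_le ⟨q', hq', t, hte, ht, rfl⟩)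
  haveI := Fact.mk hq
  rcases ha with ha | ha
  · exact hb.false_of_min hae ha hmin
  · exact hb.symm.false_of_min hae ha fun q' hq' t hte ht => hmin q' hq' t hte ht.symm

/-- Some prime-power element of class size `n` has its prime outside `m`, or conversely. -/
theorem Hyp.exists_good (hh : Hyp G n m) :
    (∃ r, r.Prime ∧ ¬ r ∣ m ∧ ∃ x : G, IsEl r x ∧ (cz x).index = n) ∨
      (∃ r, r.Prime ∧ ¬ r ∣ n ∧ ∃ x : G, IsEl r x ∧ (cz x).index = m) := by
  by_contra hne
  push Not at hne
  exact Bad.elim ⟨hh, fun q hq x hxe hx => by_contra fun h => hne.1 q hq h x hxe hx,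
    fun q hq x hxe hx => by_contra fun h => hne.2 q hq h x hxe hx⟩

end Cfsg.Agent.FGS4.FourSizes
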